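import Mathlib
import Cfsg.Agent.Lib.Helper14.DG33.Defs
import Cfsg.Agent.Lib.Helper3.IndFun

/-!
# DG33 package [MACKEY] (helper77)

The Mackey formula for `G = B ⊔ B w B`, `B ∩ w B w⁻¹ = T`.
-/

set_option autoImplicit false

namespace Cfsg.Agent.Lib.Helper77.DG33

open Cfsg
open scoped ComplexConjugate

universe u

section

variable {G : Type u} [Group G] [Fintype G]

open Classical in
/-- counting a subgroup by an indicator sum. -/
theorem count_sub (T : Subgroup G) :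
    (∑ c : G, if c ∈ T then (1 : ℂ) else 0) = (Nat.card T : ℂ) := by
  rw [Finset.sum_boole, Nat.card_eq_fintype_card, Fintype.card_subtype]

open Classical in
/-- the number of `a ∈ B` with `w⁻¹ a⁻¹ x ∈ B`. -/
theorem key_count (B T : Subgroup G) (w : G) (hTB : T ≤ B) (hw : w ∉ B)
    (hbr : ∀ g : G, g ∉ B → ∃ b₁ ∈ B, ∃ b₂ ∈ B, g = b₁ * w * b₂)
    (hint : ∀ b ∈ B, (w⁻¹ * b * w ∈ B ↔ b ∈ T)) (x : G) :
    (∑ a : G, if a ∈ B ∧ w⁻¹ * a⁻¹ * x ∈ B then (1 : ℂ) else 0) =
      if x ∈ B then 0 else (Nat.card T : ℂ) := by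
  split_ifs with hx
  · apply Finset.sum_eq_zero
    intro a _
    rw [if_neg]
    rintro ⟨ha, h⟩
    apply hw
    have h3 : w⁻¹ ∈ B := by
      have h2 := B.mul_mem h (B.inv_mem (B.mul_mem (B.inv_mem ha) hx))
      have e : w⁻¹ * a⁻¹ * x * (a⁻¹ * x)⁻¹ = w⁻¹ := by group
      rwa [e] at h2
    simpa using B.inv_mem h3
  · obtain ⟨a₀, ha₀, c₀, hc₀, rfl⟩ := hbr x hx
    rw [← count_sub T]
    refine Fintype.sum_equiv ((Equiv.inv G).trans (Equiv.mulRight a₀)) _ _ ?_
    intro a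
    simp only [Equiv.trans_apply, Equiv.inv_apply, Equiv.coe_mulRight]
    have key : (a ∈ B ∧ w⁻¹ * a⁻¹ * (a₀ * w * c₀) ∈ B) ↔ a⁻¹ * a₀ ∈ T := by
      constructor
      · rintro ⟨ha, h⟩
        have hb : a⁻¹ * a₀ ∈ B := B.mul_mem (B.inv_mem ha) ha₀
        rw [← hint _ hb]
        have h2 := B.mul_mem h (B.inv_mem hc₀)
        have e : w⁻¹ * a⁻¹ * (a₀ * w * c₀) * c₀⁻¹ = w⁻¹ * (a⁻¹ * a₀) * w := by group
        rwa [e] at h2
      · intro h
        have hb : a⁻¹ * a₀ ∈ B := hTB h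
        have ha : a ∈ B := by
          have h2 := B.mul_mem ha₀ (B.inv_mem hb)
          have e : a₀ * (a⁻¹ * a₀)⁻¹ = a := by group
          rwa [e] at h2
        refine ⟨ha, ?_⟩
        have h2 := B.mul_mem ((hint _ hb).mpr h) hc₀
        have e : w⁻¹ * (a⁻¹ * a₀) * w * c₀ = w⁻¹ * a⁻¹ * (a₀ * w * c₀) := by group
        rwa [e] at h2
    simp only [key]

open Classical in
/-- the double coset `B w B` is covered `|T|` times by `B × B`. -/
theorem double_sum (B T : Subgroup G) (w : G) (hTB : T ≤ B) (hw : w ∉ B)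
    (hbr : ∀ g : G, g ∉ B → ∃ b₁ ∈ B, ∃ b₂ ∈ B, g = b₁ * w * b₂)
    (hint : ∀ b ∈ B, (w⁻¹ * b * w ∈ B ↔ b ∈ T)) (F : G → ℂ) :
    (∑ a : G, ∑ c : G, if a ∈ B ∧ c ∈ B then F (a * w * c) else 0) =
      (Nat.card T : ℂ) * ∑ x : G, if x ∈ B then 0 else F x := by
  have h1 : ∀ a : G, (∑ c : G, if a ∈ B ∧ c ∈ B then F (a * w * c) else 0) =
      ∑ x : G, if a ∈ B ∧ w⁻¹ * a⁻¹ * x ∈ B then F x else 0 := by
    intro a
    refine Fintype.sum_equiv (Equiv.mulLeft (a * w)) _ _ ?_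
    intro c
    have e : w⁻¹ * a⁻¹ * (a * w * c) = c := by group
    simp only [Equiv.coe_mulLeft, e]
  simp_rw [h1]
  rw [Finset.sum_comm, Finset.mul_sum]
  refine Finset.sum_congr rfl fun x _ => ?_
  have h2 : (∑ a : G, if a ∈ B ∧ w⁻¹ * a⁻¹ * x ∈ B then F x else 0) =
      (∑ a : G, if a ∈ B ∧ w⁻¹ * a⁻¹ * x ∈ B then (1 : ℂ) else 0) * F x := by
    rw [Finset.sum_mul]
    refine Finset.sum_congr rfl fun a _ => ?_
    split_ifs <;> simp
  rw [h2, key_count B T w hTB hw hbr hint x]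
  split_ifs <;> simp

end

/-- **[MACKEY]** -/
theorem pkgMackey : Cfsg.Agent.Lib.Helper14.DG33.PkgMackey.{u} := by
  intro G _ _ B T _ w hTB hw hbr hint φ ψ hφ hψ
  classical
  have E1 : ∀ x, x ∉ B → extendByZero B ψ x = 0 :=
    fun x hx => Cfsg.Agent.Lib.Helper3.extendByZero_of_not_mem B ψ hx
  have E2 : ∀ c ∈ B, ∀ x, extendByZero B ψ (c⁻¹ * x * c) = extendByZero B ψ x := by
    intro c hc x
    by_cases hx : x ∈ B
    · have hcx : c⁻¹ * x * c ∈ B := B.mul_mem (B.mul_mem (B.inv_mem hc) hx) hc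
      rw [Cfsg.Agent.Lib.Helper3.extendByZero_of_mem B ψ hcx,
        Cfsg.Agent.Lib.Helper3.extendByZero_of_mem B ψ hx]
      have h1 := hψ ⟨x, hx⟩ ⟨c⁻¹, B.inv_mem hc⟩
      rw [← h1]
      congr 1
      ext
      simp
    · have hcx : c⁻¹ * x * c ∉ B := by
        intro h
        apply hx
        have h2 := B.mul_mem (B.mul_mem hc h) (B.inv_mem hc)
        have e : c * (c⁻¹ * x * c) * c⁻¹ = x := by group
        rwa [e] at h2
      rw [E1 _ hcx, E1 _ hx]
  have hBne : (Nat.card B : ℂ) ≠ 0 := by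
    have h0 : 0 < Nat.card B := Nat.card_pos
    exact_mod_cast h0.ne'
  have hTne : (Nat.card T : ℂ) ≠ 0 := by
    have h0 : 0 < Nat.card T := Nat.card_pos
    exact_mod_cast h0.ne'
  -- the value of the induced function
  have hind : ∀ g : G, indFun B ψ g = extendByZero B ψ g + (Nat.card T : ℂ)⁻¹ *
      ∑ a : G, if a ∈ B then extendByZero B ψ (w⁻¹ * a⁻¹ * g * a * w) else 0 := by
    intro g
    unfold indFun
    have hsplit : ∑ x : G, extendByZero B ψ (x⁻¹ * g * x) =
        (∑ x : G, if x ∈ B then extendByZero B ψ (x⁻¹ * g * x) else 0) +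
          ∑ x : G, if x ∈ B then 0 else extendByZero B ψ (x⁻¹ * g * x) := by
      rw [← Finset.sum_add_distrib]
      refine Finset.sum_congr rfl fun x _ => ?_
      split_ifs <;> simp
    have hin : (∑ x : G, if x ∈ B then extendByZero B ψ (x⁻¹ * g * x) else 0) =
        (Nat.card B : ℂ) * extendByZero B ψ g := by
      have h1 : ∀ x : G, (if x ∈ B then extendByZero B ψ (x⁻¹ * g * x) else 0) =
          (if x ∈ B then (1 : ℂ) else 0) * extendByZero B ψ g := by
        intro x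
        split_ifs with hx
        · rw [E2 x hx, one_mul]
        · rw [zero_mul]
      simp_rw [h1]
      rw [← Finset.sum_mul, count_sub B]
    have hout : (Nat.card T : ℂ) *
        (∑ x : G, if x ∈ B then 0 else extendByZero B ψ (x⁻¹ * g * x)) =
        (Nat.card B : ℂ) *
          ∑ a : G, if a ∈ B then extendByZero B ψ (w⁻¹ * a⁻¹ * g * a * w) else 0 := by
      rw [← double_sum B T w hTB hw hbr hint (fun x => extendByZero B ψ (x⁻¹ * g * x))]
      rw [Finset.mul_sum]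
      refine Finset.sum_congr rfl fun a _ => ?_
      by_cases ha : a ∈ B
      · simp only [ha, true_and, if_true]
        have h1 : ∀ c : G,
            (if c ∈ B then extendByZero B ψ ((a * w * c)⁻¹ * g * (a * w * c)) else 0) =
            (if c ∈ B then (1 : ℂ) else 0) * extendByZero B ψ (w⁻¹ * a⁻¹ * g * a * w) := by
          intro c
          split_ifs with hc
          · rw [one_mul, ← E2 c hc (w⁻¹ * a⁻¹ * g * a * w)]
            congr 1
            group
          · rw [zero_mul]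
        simp_rw [h1]
        rw [← Finset.sum_mul, count_sub B]
      · simp [ha]
    have h3 : (∑ x : G, if x ∈ B then 0 else extendByZero B ψ (x⁻¹ * g * x)) =
        (Nat.card T : ℂ)⁻¹ * ((Nat.card B : ℂ) *
          ∑ a : G, if a ∈ B then extendByZero B ψ (w⁻¹ * a⁻¹ * g * a * w) else 0) := by
      rw [← hout, ← mul_assoc, inv_mul_cancel₀ hTne, one_mul]
    rw [hsplit, hin, h3]
    field_simp
  -- the reindexed inner sum
  have hS : ∀ a : G, a ∈ B →
      (∑ b : B, φ b * conj (extendByZero B ψ (w⁻¹ * a⁻¹ * (b : G) * a * w))) =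
        ∑ y : G, extendByZero B φ y * conj (extendByZero B ψ (w⁻¹ * y * w)) := by
    intro a ha
    rw [Cfsg.Agent.Lib.Helper3.sum_extendByZero_mul B φ
      (fun y => conj (extendByZero B ψ (w⁻¹ * y * w)))]
    refine Fintype.sum_equiv (MulAut.conj (⟨a, ha⟩⁻¹ : B)).toEquiv _ _ ?_
    intro b
    have e1 : ((MulAut.conj (⟨a, ha⟩⁻¹ : B)).toEquiv b) = (⟨a, ha⟩ : B)⁻¹ * b * ⟨a, ha⟩ := by
      simp
    rw [e1]
    have e2 : φ ((⟨a, ha⟩ : B)⁻¹ * b * ⟨a, ha⟩) = φ b := by
      have h1 := hφ b (⟨a, ha⟩⁻¹ : B)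
      rw [← h1]
      congr 1
      simp
    rw [e2]
    congr 3
    simp [mul_assoc]
  rw [Cfsg.Agent.Lib.Helper3.frobenius_reciprocity B φ (indFun B ψ)
    (Cfsg.Agent.Lib.Helper3.isClassFunction_indFun B ψ)]
  unfold classInner
  have hterm : ∀ b : B, φ b * conj (indFun B ψ (b : G)) = φ b * conj (ψ b) +
      (Nat.card T : ℂ)⁻¹ * ∑ a : G, if a ∈ B then
        φ b * conj (extendByZero B ψ (w⁻¹ * a⁻¹ * (b : G) * a * w)) else 0 := by
    intro b
    rw [hind (b : G), Cfsg.Agent.Lib.Helper3.extendByZero_coe, map_add, map_mul, map_inv₀,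
      Complex.conj_natCast, map_sum, mul_add]
    congr 1
    rw [mul_left_comm, Finset.mul_sum]
    congr 1
    refine Finset.sum_congr rfl fun a _ => ?_
    split_ifs <;> simp
  simp_rw [hterm]
  rw [Finset.sum_add_distrib, ← Finset.mul_sum, Finset.sum_comm]
  have hdouble : (∑ a : G, ∑ b : B, if a ∈ B then
      φ b * conj (extendByZero B ψ (w⁻¹ * a⁻¹ * (b : G) * a * w)) else 0) =
      (Nat.card B : ℂ) *
        ∑ y : G, extendByZero B φ y * conj (extendByZero B ψ (w⁻¹ * y * w)) := by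
    have h1 : ∀ a : G, (∑ b : B, if a ∈ B then
        φ b * conj (extendByZero B ψ (w⁻¹ * a⁻¹ * (b : G) * a * w)) else 0) =
        (if a ∈ B then (1 : ℂ) else 0) *
          ∑ y : G, extendByZero B φ y * conj (extendByZero B ψ (w⁻¹ * y * w)) := by
      intro a
      split_ifs with ha
      · rw [one_mul, hS a ha]
      · rw [zero_mul]
        exact Finset.sum_const_zero
    simp_rw [h1]
    rw [← Finset.sum_mul, count_sub B]
  rw [hdouble]
  field_simp

end Cfsg.Agent.Lib.Helper77.DG33
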