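import Mathlib
import Cfsg.Agent.Lib.Helper14.DG33.Defs
import Cfsg.Agent.Lib.Helper39.CharGen
import Cfsg.Agent.Lib.Helper75.CharDecomp
import Cfsg.Agent.Lib.Helper3.CharValues
import Cfsg.Agent.Lib.Helper3.CharCore

/-!
# DG33 package [P3] (helper77)

Characters of a nonabelian group of order 27 on its centre (Route A: central twists).
-/

set_option autoImplicit false

namespace Cfsg.Agent.Lib.Helper77.DG33

open Cfsg
open scoped ComplexConjugate

universe u

/-- elements of a subgroup of order 3 with a nontrivial element `z`. -/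
theorem mem_three {P : Type u} [Group P] [Finite P] (Z : Subgroup P) (hZ : Nat.card Z = 3)
    (z : P) (hz : z ∈ Z) (hz1 : z ≠ 1) :
    z * z * z = 1 ∧ ∀ c ∈ Z, c = 1 ∨ c = z ∨ c = z * z := by
  classical
  haveI : Fact (Nat.Prime 3) := ⟨Nat.prime_three⟩
  have hx1 : (⟨z, hz⟩ : Z) ≠ 1 := by
    intro h
    exact hz1 (congrArg Subtype.val h)
  have htop : Subgroup.zpowers (⟨z, hz⟩ : Z) = ⊤ := zpowers_eq_top_of_prime_card hZ hx1
  have hx3 : (⟨z, hz⟩ : Z) ^ 3 = 1 := by
    have h := pow_card_eq_one' (G := Z) (x := ⟨z, hz⟩)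
    rwa [hZ] at h
  have hz3 : z ^ 3 = 1 := by
    have h := congrArg Subtype.val hx3
    simpa using h
  refine ⟨by rw [← hz3]; simp [pow_succ], ?_⟩
  intro c hc
  have hmem : (⟨c, hc⟩ : Z) ∈ Subgroup.zpowers (⟨z, hz⟩ : Z) := by
    rw [htop]
    exact Subgroup.mem_top _
  obtain ⟨k, hk⟩ := Subgroup.mem_zpowers_iff.mp hmem
  have hk' : z ^ k = c := by
    have h := congrArg Subtype.val hk
    simpa using h
  have hmod : z ^ k = z ^ (k % 3) := by
    conv_lhs => rw [← Int.mul_ediv_add_emod k 3]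
    rw [zpow_add, zpow_mul, zpow_ofNat, hz3, one_zpow, one_mul]
  have h0 : 0 ≤ k % 3 := Int.emod_nonneg k (by norm_num)
  have h3 : k % 3 < 3 := Int.emod_lt_of_pos k (by norm_num)
  rw [← hk', hmod]
  obtain ⟨j, hj⟩ := Int.eq_ofNat_of_zero_le h0
  rw [hj] at h3 ⊢
  have hj3 : j < 3 := by exact_mod_cast h3
  rw [zpow_natCast]
  interval_cases j
  · left; simp
  · right; left; simp
  · right; right; simp [pow_succ]

/-- the analysis of one irreducible character. -/
theorem p3_irr (P : Type u) [Group P] [Fintype P] (Z : Subgroup P) (hP : Nat.card P = 27)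
    (hZ : Nat.card Z = 3) (hc : ∀ z ∈ Z, ∀ p : P, z * p = p * z)
    (hcomm : ∀ p q : P, p * q * p⁻¹ * q⁻¹ ∈ Z)
    (hnc : ∀ p : P, p ∉ Z → ∃ q : P, p * q ≠ q * p)
    (z : P) (hz : z ∈ Z) (hz1 : z ≠ 1) (η : P → ℂ) (hη : IsIrrCharacter P η) :
    ∃ ω : ℂ, ω ^ 3 = 1 ∧ η z = ω * η 1 ∧ η z⁻¹ = ω ^ 2 * η 1 ∧ (ω ≠ 1 → η 1 = 3) := by
  classical
  have hη1 : Cfsg.classInner η η = 1 := Cfsg.Agent.Lib.Helper3.classInner_irr_self hη
  obtain ⟨n, ρ, hirr, rfl⟩ := hη
  haveI := hirr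
  obtain ⟨ω, hωn, hω⟩ := Cfsg.Agent.Lib.Helper39.central_twist ρ z (hc z hz)
  obtain ⟨hzzz, hmem⟩ := mem_three Z hZ z hz hz1
  have hinv : z⁻¹ = z * z := by
    apply inv_eq_of_mul_eq_one_right
    rw [← mul_assoc]
    exact hzzz
  have hcls : Cfsg.IsClassFunction P ρ.character :=
    Cfsg.Agent.Lib.Helper3.isClassFunction_of_isCharacter ⟨n, ρ, rfl⟩
  have hone : ρ.character 1 = (n : ℂ) := by
    rw [Representation.char_one]
    simp
  have hn0 : n ≠ 0 := by
    rintro rfl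
    have hnt := Cfsg.Agent.Lib.Helper39.nontrivial_of_irr ρ
    obtain ⟨v, hv⟩ := exists_ne (0 : Fin 0 → ℂ)
    exact hv (Subsingleton.elim _ _)
  have hnC : (n : ℂ) ≠ 0 := by exact_mod_cast hn0
  have h1 : ρ.character z = ω * ρ.character 1 := by
    have h := hω 1
    rwa [mul_one] at h
  have h2 : ρ.character (z * z) = ω ^ 2 * ρ.character 1 := by
    rw [hω z, h1]
    ring
  have hω3 : ω ^ 3 = 1 := by
    have h := hω (z * z)
    rw [← mul_assoc, hzzz, h2, hone] at h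
    have h' : (n : ℂ) * (ω ^ 3 - 1) = 0 := by linear_combination -h
    rcases mul_eq_zero.mp h' with h'' | h''
    · exact absurd h'' hnC
    · exact sub_eq_zero.mp h''
  refine ⟨ω, hω3, h1, by rw [hinv, h2], ?_⟩
  intro hω1
  have hω2 : ω ^ 2 ≠ 1 := by
    intro h
    apply hω1
    have h3 := hω3
    rw [pow_succ, h, one_mul] at h3
    exact h3
  -- vanishing off `Z`
  have hvan : ∀ g : P, g ∉ Z → ρ.character g = 0 := by
    intro g hg
    obtain ⟨q, hq⟩ := hnc g hg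
    have hcZ : q * g * q⁻¹ * g⁻¹ ∈ Z := hcomm q g
    have hc1 : q * g * q⁻¹ * g⁻¹ ≠ 1 := by
      intro h
      apply hq
      have : q * g = g * q := by
        have h' : q * g * q⁻¹ * g⁻¹ * (g * q) = g * q := by rw [h, one_mul]
        rw [← h']
        group
      exact this.symm
    have hconj : ρ.character (q * g * q⁻¹) = ρ.character g := hcls g q
    have hprod : q * g * q⁻¹ = (q * g * q⁻¹ * g⁻¹) * g := by group
    rcases hmem _ hcZ with h | h | h
    · exact absurd h hc1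
    · rw [hprod, h, hω g] at hconj
      have h' : (ω - 1) * ρ.character g = 0 := by linear_combination hconj
      rcases mul_eq_zero.mp h' with h'' | h''
      · exact absurd (sub_eq_zero.mp h'') hω1
      · exact h''
    · rw [hprod, h, mul_assoc, hω (z * g), hω g] at hconj
      have h' : (ω ^ 2 - 1) * ρ.character g = 0 := by linear_combination hconj
      rcases mul_eq_zero.mp h' with h'' | h''
      · exact absurd (sub_eq_zero.mp h'') hω2
      · exact h''
  -- the norm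
  have hωc : ω * conj ω = 1 := by
    rw [Complex.mul_conj, Complex.normSq_eq_norm_sq, hωn]
    simp
  have hfilter : (Finset.univ.filter (fun g : P => g ∈ Z)) = {1, z, z * z} := by
    ext c
    simp only [Finset.mem_filter, Finset.mem_univ, true_and, Finset.mem_insert,
      Finset.mem_singleton]
    constructor
    · exact hmem c
    · rintro (rfl | rfl | rfl)
      · exact Z.one_mem
      · exact hz
      · exact Z.mul_mem hz hz
  have hzz1 : z * z ≠ 1 := by
    intro h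
    apply hz1
    have h' := hzzz
    rw [h, one_mul] at h'
    exact h'
  have hzz : z ≠ z * z := by
    intro h
    apply hz1
    have : z * 1 = z * z := by rw [mul_one]; exact h
    exact (mul_left_cancel this).symm
  have hsum : ∑ g : P, ρ.character g * conj (ρ.character g) = 3 * (n : ℂ) ^ 2 := by
    have hs : ∑ g : P, ρ.character g * conj (ρ.character g) =
        ∑ g ∈ Finset.univ.filter (fun g : P => g ∈ Z),
          ρ.character g * conj (ρ.character g) := by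
      rw [Finset.sum_filter]
      refine Finset.sum_congr rfl fun g _ => ?_
      split_ifs with hg
      · rfl
      · rw [hvan g hg, zero_mul]
    rw [hs, hfilter, Finset.sum_insert (by simp [Ne.symm hz1, Ne.symm hzz1]),
      Finset.sum_insert (by simp [hzz]), Finset.sum_singleton, h1, h2, hone]
    simp only [map_mul, map_pow, Complex.conj_natCast]
    linear_combination ((n : ℂ) ^ 2 + (n : ℂ) ^ 2 * (ω * conj ω + 1)) * hωc
  unfold Cfsg.classInner at hη1
  rw [hsum, hP] at hη1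
  have hn2 : ((n * n : ℕ) : ℂ) = ((9 : ℕ) : ℂ) := by
    push_cast
    have h27 : ((27 : ℕ) : ℂ) = 27 := by norm_num
    rw [h27] at hη1
    linear_combination 9 * hη1
  have hn9 : n * n = 9 := by exact_mod_cast hn2
  have hn3 : n = 3 := by nlinarith
  rw [hone, hn3]
  norm_num

/-- **[P3]** -/
theorem pkgP3 : Cfsg.Agent.Lib.Helper14.DG33.PkgP3.{u} := by
  intro P _ _ Z hP hZ hc hcomm hnc θ hθ z hz hz1 hθz
  classical
  have : Fintype P := Fintype.ofFinite P
  have : Fintype (IrrCharacter P) := Fintype.ofFinite _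
  obtain ⟨m, -, hm⟩ := Cfsg.Agent.Lib.Helper75.char_eq_sum_irr hθ
  choose ω hω3 hωz hωzi hω1 using fun ψ : IrrCharacter P =>
    p3_irr P Z hP hZ hc hcomm hnc z hz hz1 ψ.1 ψ.2
  obtain ⟨ω₀, hω₀3, hω₀1⟩ : ∃ ω₀ : ℂ, ω₀ ^ 3 = 1 ∧ ω₀ ≠ 1 := by
    have hp := Complex.isPrimitiveRoot_exp 3 (by norm_num)
    exact ⟨_, hp.pow_eq_one, hp.ne_one (by norm_num)⟩
  have cube : ∀ x : ℂ, x ^ 3 = 1 → x ≠ 1 → x ^ 2 + x + 1 = 0 := by
    intro x hx3 hx1
    have h : (x - 1) * (x ^ 2 + x + 1) = 0 := by linear_combination hx3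
    rcases mul_eq_zero.mp h with h' | h'
    · exact absurd (sub_eq_zero.mp h') hx1
    · exact h'
  have hsum0 : ω₀ ^ 2 + ω₀ + 1 = 0 := cube ω₀ hω₀3 hω₀1
  have hω₀ne : ω₀ ≠ ω₀ ^ 2 := by
    intro h
    apply hω₀1
    have h0 : ω₀ ≠ 0 := by
      rintro rfl
      simp at hω₀3
    have h' : ω₀ * (ω₀ - 1) = 0 := by linear_combination -h
    rcases mul_eq_zero.mp h' with h'' | h''
    · exact absurd h'' h0
    · exact sub_eq_zero.mp h''
  have hω₀sq : ω₀ ^ 2 ≠ 1 := by
    intro h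
    apply hω₀1
    have : ω₀ = ω₀ ^ 3 - ω₀ * (ω₀ ^ 2 - 1) := by ring
    rw [this, hω₀3, h]
    ring
  have hcls : ∀ ψ, ω ψ = 1 ∨ ω ψ = ω₀ ∨ ω ψ = ω₀ ^ 2 := by
    intro ψ
    by_cases h1 : ω ψ = 1
    · exact Or.inl h1
    · right
      have hs := cube (ω ψ) (hω3 ψ) h1
      have h : (ω ψ - ω₀) * (ω ψ - ω₀ ^ 2) = 0 := by
        linear_combination hs - (ω ψ) * hsum0 + hω₀3
      rcases mul_eq_zero.mp h with h' | h'
      · exact Or.inl (sub_eq_zero.mp h')
      · exact Or.inr (sub_eq_zero.mp h')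
  set u : ℂ := 3 * (1 - ω₀) with hu
  set v : ℂ := 3 * (1 - ω₀ ^ 2) with hv
  let k₁ : IrrCharacter P → ℕ := fun ψ => if ω ψ = ω₀ then 1 else 0
  let k₂ : IrrCharacter P → ℕ := fun ψ => if ω ψ = ω₀ ^ 2 then 1 else 0
  have ha : ∀ ψ : IrrCharacter P, ψ.1 1 - ψ.1 z = (k₁ ψ : ℂ) * u + (k₂ ψ : ℂ) * v := by
    intro ψ
    rcases hcls ψ with h | h | h
    · have e1 : k₁ ψ = 0 := by
        simp only [k₁, h, if_neg (Ne.symm hω₀1)]
      have e2 : k₂ ψ = 0 := by
        simp only [k₂, h, if_neg (Ne.symm hω₀sq)]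
      rw [hωz ψ, h, e1, e2]
      simp
    · have e1 : k₁ ψ = 1 := by
        simp only [k₁, h, if_true]
      have e2 : k₂ ψ = 0 := by
        simp only [k₂, h, if_neg hω₀ne]
      have h3 := hω1 ψ (by rw [h]; exact hω₀1)
      rw [hωz ψ, h, e1, e2, h3, hu]
      push_cast
      ring
    · have e1 : k₁ ψ = 0 := by
        simp only [k₁, h, if_neg (Ne.symm hω₀ne)]
      have e2 : k₂ ψ = 1 := by
        simp only [k₂, h, if_true]
      have h3 := hω1 ψ (by rw [h]; exact hω₀sq)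
      rw [hωz ψ, h, e1, e2, h3, hv]
      push_cast
      ring
  have hb : ∀ ψ : IrrCharacter P, ψ.1 z - ψ.1 z⁻¹ = ((k₁ ψ : ℂ) - (k₂ ψ : ℂ)) * (v - u) := by
    intro ψ
    rcases hcls ψ with h | h | h
    · have e1 : k₁ ψ = 0 := by
        simp only [k₁, h, if_neg (Ne.symm hω₀1)]
      have e2 : k₂ ψ = 0 := by
        simp only [k₂, h, if_neg (Ne.symm hω₀sq)]
      rw [hωz ψ, hωzi ψ, h, e1, e2]
      simp
    · have e1 : k₁ ψ = 1 := by
        simp only [k₁, h, if_true]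
      have e2 : k₂ ψ = 0 := by
        simp only [k₂, h, if_neg hω₀ne]
      have h3 := hω1 ψ (by rw [h]; exact hω₀1)
      rw [hωz ψ, hωzi ψ, h, e1, e2, h3, hu, hv]
      push_cast
      ring
    · have e1 : k₁ ψ = 0 := by
        simp only [k₁, h, if_neg (Ne.symm hω₀ne)]
      have e2 : k₂ ψ = 1 := by
        simp only [k₂, h, if_true]
      have h3 := hω1 ψ (by rw [h]; exact hω₀sq)
      rw [hωz ψ, hωzi ψ, h, e1, e2, h3, hu, hv]
      push_cast
      linear_combination (-3 * ω₀) * hω₀3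
  have hval : ∀ g : P, θ g = ∑ ψ : IrrCharacter P, (m ψ : ℂ) * ψ.1 g := by
    intro g
    have h := congrFun hm g
    rw [h, Finset.sum_apply]
    refine Finset.sum_congr rfl fun ψ _ => ?_
    simp
  have hA : θ 1 - θ z = ((∑ ψ : IrrCharacter P, m ψ * k₁ ψ : ℕ) : ℂ) * u +
      ((∑ ψ : IrrCharacter P, m ψ * k₂ ψ : ℕ) : ℂ) * v := by
    rw [hval 1, hval z, ← Finset.sum_sub_distrib]
    push_cast
    rw [Finset.sum_mul, Finset.sum_mul, ← Finset.sum_add_distrib]
    refine Finset.sum_congr rfl fun ψ _ => ?_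
    rw [← mul_sub, ha ψ]
    ring
  have hB : θ z - θ z⁻¹ = (((∑ ψ : IrrCharacter P, m ψ * k₁ ψ : ℕ) : ℂ) -
      ((∑ ψ : IrrCharacter P, m ψ * k₂ ψ : ℕ) : ℂ)) * (v - u) := by
    rw [hval z, hval z⁻¹, ← Finset.sum_sub_distrib]
    push_cast
    rw [← Finset.sum_sub_distrib, Finset.sum_mul]
    refine Finset.sum_congr rfl fun ψ _ => ?_
    rw [← mul_sub, hb ψ]
    ring
  have hvu : v - u ≠ 0 := by
    rw [hu, hv]
    intro h
    apply hω₀ne
    linear_combination (1 / 3 : ℂ) * h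
  have hM : ((∑ ψ : IrrCharacter P, m ψ * k₁ ψ : ℕ) : ℂ) =
      ((∑ ψ : IrrCharacter P, m ψ * k₂ ψ : ℕ) : ℂ) := by
    rw [hθz, sub_self] at hB
    rcases mul_eq_zero.mp hB.symm with h | h
    · exact sub_eq_zero.mp h
    · exact absurd h hvu
  refine ⟨∑ ψ : IrrCharacter P, m ψ * k₁ ψ, ?_⟩
  rw [hA, ← hM, hu, hv]
  linear_combination (-3 * ((∑ ψ : IrrCharacter P, m ψ * k₁ ψ : ℕ) : ℂ)) * hsum0

end Cfsg.Agent.Lib.Helper77.DG33
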