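import Mathlib
import Cfsg.Agent.Lib.Helper19.DG33.Model

/-!
# DG33 sub-package [RBRUHAT] (helper77)

The Bruhat decomposition `G = B ⊔ B w B` in the antidiagonal model of `SU(3,3)`.
-/

set_option autoImplicit false

namespace Cfsg.Agent.Lib.Helper77.DG33

open Matrix Cfsg.Agent.Lib.Helper45 Cfsg.Agent.Lib.Helper86.Un Cfsg.Agent.Lib.Helper86.SU3
  Cfsg.Agent.Lib.Helper86.SL3

universe u

section

variable {F : Type u} [Field F] {σ : F →+* F}

/-- entry `(2,0)` of the unitarity relation: column `0` is isotropic. -/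
theorem ent0 (h : UJ 3 σ) :
    σ (mat h 2 0) * mat h 0 0 + σ (mat h 1 0) * mat h 1 0 + σ (mat h 0 0) * mat h 2 0 = 0 := by
  have e := congrFun (congrFun (valid_mat h).2 2) 0
  rw [Matrix.mul_apply, Fin.sum_univ_three] at e
  have e2 : (1 : Matrix (Fin 3) (Fin 3) F) 2 0 = 0 := Matrix.one_apply_ne (by decide)
  rw [e2] at e
  exact e

/-- entry `(2,1)` of the unitarity relation: columns `0` and `1` are orthogonal. -/
theorem ent1 (h : UJ 3 σ) :
    σ (mat h 2 0) * mat h 0 1 + σ (mat h 1 0) * mat h 1 1 + σ (mat h 0 0) * mat h 2 1 = 0 := by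
  have e := congrFun (congrFun (valid_mat h).2 2) 1
  rw [Matrix.mul_apply, Fin.sum_univ_three] at e
  have e2 : (1 : Matrix (Fin 3) (Fin 3) F) 2 1 = 0 := Matrix.one_apply_ne (by decide)
  rw [e2] at e
  exact e

end

/-- **[RBRUHAT]** -/
theorem pkgRBruhat : Cfsg.Agent.Lib.Helper19.DG33.PkgRBruhat.{u} := by
  intro F _ _ hF g hg
  have hσσ : ∀ x, sigmaQ hF (sigmaQ hF x) = x := Cfsg.Agent.Lib.Helper19.DG33.sig_sig hF
  have e0 := ent0 g
  have e1 := ent1 g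
  have hdet : (mat g).det = 1 := (valid_mat g).1
  have hs : mat g 2 0 ≠ 0 := by
    intro h20
    apply hg
    rw [Cfsg.Agent.Lib.Helper19.DG33.mem_Bm]
    rw [h20, map_zero, zero_mul, zero_add, mul_zero, add_zero] at e0
    have h10 : mat g 1 0 = 0 := by
      rcases mul_eq_zero.mp e0 with h | h
      · exact (map_eq_zero (sigmaQ hF)).mp h
      · exact h
    have h00 : mat g 0 0 ≠ 0 := by
      intro h00
      rw [Matrix.det_fin_three, h00, h10, h20] at hdet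
      simp at hdet
    rw [h20, h10, map_zero, zero_mul, zero_mul, zero_add, zero_add] at e1
    have h21 : mat g 2 1 = 0 := by
      rcases mul_eq_zero.mp e1 with h | h
      · exact absurd ((map_eq_zero (sigmaQ hF)).mp h) h00
      · exact h
    exact ⟨h10, h20, h21⟩
  have hσs : sigmaQ hF (mat g 2 0) ≠ 0 := (map_ne_zero (sigmaQ hF)).mpr hs
  obtain ⟨x, hx⟩ : ∃ x : F, x = sigmaQ hF (mat g 1 0) / sigmaQ hF (mat g 2 0) := ⟨_, rfl⟩
  obtain ⟨y, hy⟩ : ∃ y : F, y = -(mat g 0 0 + x * mat g 1 0) / mat g 2 0 := ⟨_, rfl⟩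
  have hσx : sigmaQ hF x = mat g 1 0 / mat g 2 0 := by
    rw [hx, map_div₀, hσσ, hσσ]
  have hσy : sigmaQ hF y =
      -(sigmaQ hF (mat g 0 0) + sigmaQ hF x * sigmaQ hF (mat g 1 0)) / sigmaQ hF (mat g 2 0) := by
    rw [hy, map_div₀, map_neg, map_add, map_mul]
  have hxy : y + sigmaQ hF y + x * sigmaQ hF x = 0 := by
    rw [hσy, hσx, hy, hx]
    field_simp
    linear_combination (-1 : F) * e0
  have hPv : ValidU (sigmaQ hF) (!![1, x, y; 0, 1, -sigmaQ hF x; 0, 0, 1] : Matrix (Fin 3) (Fin 3) F) := by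
    refine ⟨by rw [det3]; ring, ?_⟩
    rw [adj3, Matrix.mul_fin_three, Matrix.one_fin_three]
    apply m3_ext <;> simp only [map_zero, map_one, map_neg, hσσ] <;>
      first | ring1 | linear_combination hxy
  obtain ⟨p, hp⟩ : ∃ p : UJ 3 (sigmaQ hF),
      mat p = (!![1, x, y; 0, 1, -sigmaQ hF x; 0, 0, 1] : Matrix (Fin 3) (Fin 3) F) :=
    ⟨ofMat (sigmaQ hF) _, mat_ofMat hPv⟩
  have hpB : p ∈ Cfsg.Agent.Lib.Helper19.DG33.Bm hF := by
    rw [Cfsg.Agent.Lib.Helper19.DG33.mem_Bm, hp]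
    exact ⟨rfl, rfl, rfl⟩
  have hwinv : (Cfsg.Agent.Lib.Helper19.DG33.wm hF)⁻¹ = Cfsg.Agent.Lib.Helper19.DG33.wm hF :=
    inv_eq_of_mul_eq_one_left fU_mul
  -- the product `p * g`
  have N00 : mat (p * g) 0 0 = 0 := by
    rw [map_mul, hp, Matrix.mul_apply, Fin.sum_univ_three]
    show 1 * mat g 0 0 + x * mat g 1 0 + y * mat g 2 0 = 0
    rw [hy]
    field_simp
    ring
  have N10 : mat (p * g) 1 0 = 0 := by
    rw [map_mul, hp, Matrix.mul_apply, Fin.sum_univ_three]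
    show 0 * mat g 0 0 + 1 * mat g 1 0 + -sigmaQ hF x * mat g 2 0 = 0
    rw [hσx]
    field_simp
    ring
  have N20 : mat (p * g) 2 0 = mat g 2 0 := by
    rw [map_mul, hp, Matrix.mul_apply, Fin.sum_univ_three]
    show 0 * mat g 0 0 + 0 * mat g 1 0 + 1 * mat g 2 0 = mat g 2 0
    ring
  have hmat : mat ((Cfsg.Agent.Lib.Helper19.DG33.wm hF)⁻¹ * p * g) = f3 F * mat (p * g) := by
    rw [hwinv, mul_assoc, map_mul, Cfsg.Agent.Lib.Helper19.DG33.mat_wm]
  have H10 : mat ((Cfsg.Agent.Lib.Helper19.DG33.wm hF)⁻¹ * p * g) 1 0 = 0 := by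
    rw [hmat, Matrix.mul_apply, Fin.sum_univ_three]
    show 0 * mat (p * g) 0 0 + -1 * mat (p * g) 1 0 + 0 * mat (p * g) 2 0 = 0
    rw [N10]
    ring
  have H20 : mat ((Cfsg.Agent.Lib.Helper19.DG33.wm hF)⁻¹ * p * g) 2 0 = 0 := by
    rw [hmat, Matrix.mul_apply, Fin.sum_univ_three]
    show 1 * mat (p * g) 0 0 + 0 * mat (p * g) 1 0 + 0 * mat (p * g) 2 0 = 0
    rw [N00]
    ring
  have H00 : mat ((Cfsg.Agent.Lib.Helper19.DG33.wm hF)⁻¹ * p * g) 0 0 = mat g 2 0 := by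
    rw [hmat, Matrix.mul_apply, Fin.sum_univ_three]
    show 0 * mat (p * g) 0 0 + 0 * mat (p * g) 1 0 + 1 * mat (p * g) 2 0 = mat g 2 0
    rw [N20]
    ring
  have H21 : mat ((Cfsg.Agent.Lib.Helper19.DG33.wm hF)⁻¹ * p * g) 2 1 = 0 := by
    have e := ent1 ((Cfsg.Agent.Lib.Helper19.DG33.wm hF)⁻¹ * p * g)
    rw [H20, H10, H00, map_zero, zero_mul, zero_mul, zero_add, zero_add] at e
    rcases mul_eq_zero.mp e with h | h
    · exact absurd h hσs
    · exact h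
  refine ⟨p⁻¹, (Cfsg.Agent.Lib.Helper19.DG33.Bm hF).inv_mem hpB,
    (Cfsg.Agent.Lib.Helper19.DG33.wm hF)⁻¹ * p * g, ?_, by group⟩
  rw [Cfsg.Agent.Lib.Helper19.DG33.mem_Bm]
  exact ⟨H10, H20, H21⟩

end Cfsg.Agent.Lib.Helper77.DG33
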